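import Cfsg.Agent.R2.H3.CentU
import Cfsg.Agent.H83.Count
import Cfsg.Agent.H83.RedESix
import Cfsg.Agent.H83.RedESeven
import Cfsg.Agent.H83.RedEEight
import Cfsg.Agent.S2174
import Cfsg.Agent.S2177
import Cfsg.Agent.OrdDiv.Table

/-!
# S3319: the untwisted exceptional groups in characteristic two (helper3, second round)
-/

set_option autoImplicit false

namespace Cfsg.Agent.R2.H3.Exc

open Cfsg Cfsg.Lie Cfsg.Agent.ChevalleyStructure Cfsg.Agent.ChevalleyStructure.Elts Cfsg.Agent.H83.ChevInv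
  Cfsg.Agent.R2.H3.CentU

theorem two_le (F : Type) [Field F] [Fintype F] : 2 ≤ Fintype.card F := Fintype.one_lt_card

theorem hp6 : Cfsg.Agent.Nodes.RGDChev.IsType Cfsg.Lie.chevE6 6 CoxeterMatrix.E₆ := by
  simp [Cfsg.Agent.Nodes.RGDChev.IsType, Cfsg.Agent.Nodes.RGDChev.typeList]

theorem hp7 : Cfsg.Agent.Nodes.RGDChev.IsType Cfsg.Lie.chevE7 7 CoxeterMatrix.E₇ := by
  simp [Cfsg.Agent.Nodes.RGDChev.IsType, Cfsg.Agent.Nodes.RGDChev.typeList]

theorem hp8 : Cfsg.Agent.Nodes.RGDChev.IsType Cfsg.Lie.chevE8 8 CoxeterMatrix.E₈ := by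
  simp [Cfsg.Agent.Nodes.RGDChev.IsType, Cfsg.Agent.Nodes.RGDChev.typeList]

theorem hpG : Cfsg.Agent.Nodes.RGDChev.IsType Cfsg.Lie.chevG2 2 CoxeterMatrix.G₂ := by
  simp [Cfsg.Agent.Nodes.RGDChev.IsType, Cfsg.Agent.Nodes.RGDChev.typeList]

theorem hpF : Cfsg.Agent.Nodes.RGDChev.IsType Cfsg.Lie.chevF4 4 CoxeterMatrix.F₄ := by
  simp [Cfsg.Agent.Nodes.RGDChev.IsType, Cfsg.Agent.Nodes.RGDChev.typeList]

variable {F : Type} [Field F] [Fintype F] [CharP F 2]

theorem rep_of {D : ChevalleyDatum} (hD : UnipOrd.InList D) {reps : List (List ℕ)} {t : GL D.Idx F} (h1 : t ≠ 1)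
    (h : ∃ R ∈ [] :: reps, ∃ g ∈ D.group F, g * t * g⁻¹ = PX hD F R) :
    ∃ R ∈ reps, ∃ g ∈ D.group F, g * t * g⁻¹ = PX hD F R := by
  obtain ⟨R, hR, g, hg, e⟩ := h
  rcases List.mem_cons.1 hR with rfl | hR
  · exfalso
    rw [PX_nil] at e
    apply h1
    have h2 : t = g⁻¹ * (g * t * g⁻¹) * g := by group
    rw [h2, e]
    group
  · exact ⟨R, hR, g, hg, e⟩

theorem nc_e6 : NC ↥(chevE6.group F) := by
  refine nc_group hp6.inList (reps := [[71], [71, 60], [71, 60, 44]]) (n := 24) ?_ ?_ (by decide +kernel)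
  · exact (Nat.pow_le_pow_right (by norm_num) (by norm_num)).trans (Nat.pow_le_pow_left (two_le F) 24)
  · intro t ht h2 h1
    exact rep_of _ h1 (Cfsg.Agent.H83.Count.exists_rep (hp := hp6) Cfsg.Agent.H83.RedESix.allchk_eq ht h2)

theorem nc_e7 : NC ↥(chevE7.group F) := by
  refine nc_group hp7.inList (reps := [[125], [125, 92], [125, 92, 63], [125, 92, 87], [125, 92, 63, 87]]) (n := 33)
    ?_ ?_ (by decide +kernel)
  · exact (Nat.pow_le_pow_right (by norm_num) (by norm_num)).trans (Nat.pow_le_pow_left (two_le F) 33)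
  · intro t ht h2 h1
    exact rep_of _ h1 (Cfsg.Agent.H83.Count.exists_rep (hp := hp7) Cfsg.Agent.H83.RedESeven.allchk_eq ht h2)

theorem nc_e8 : NC ↥(chevE8.group F) := by
  refine nc_group hp8.inList (reps := [[239], [239, 226], [239, 226, 159], [239, 226, 159, 152]]) (n := 72)
    ?_ ?_ (by decide +kernel)
  · exact (Nat.pow_le_pow_right (by norm_num) (by norm_num)).trans (Nat.pow_le_pow_left (two_le F) 72)
  · intro t ht h2 h1
    exact rep_of _ h1 (Cfsg.Agent.H83.Count.exists_rep (hp := hp8) Cfsg.Agent.H83.RedEEight.allchk_eq ht h2)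

/-- the field has `2, 4, 8, 16` or at least `32` elements -/
theorem card_cases : Fintype.card F = 2 ∨ Fintype.card F = 4 ∨ Fintype.card F = 8 ∨ Fintype.card F = 16 ∨
    32 ≤ Fintype.card F := by
  obtain ⟨⟨m, hm⟩, hp, hcard⟩ := FiniteField.card F 2
  simp only [PNat.mk_coe] at hcard
  rw [hcard]
  by_cases h : 5 ≤ m
  · right; right; right; right
    exact (show 32 = 2 ^ 5 by norm_num) ▸ Nat.pow_le_pow_right (by norm_num) h
  · interval_cases m <;> simp

theorem nc_f4 : NC ↥(chevF4.group F) := by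
  have hc := (Cfsg.Agent.OrdDiv.table.{0}).f4 F _ rfl
  have H : 32 ≤ Fintype.card F → NC ↥(chevF4.group F) := by
    intro h32
    refine nc_group hpF.inList (reps := [[47], [44], [47, 44], [39, 45]]) (n := 17) ?_ ?_ (by decide +kernel)
    · exact le_trans (by norm_num) (Nat.pow_le_pow_left h32 17)
    · intro t ht h2 h1
      obtain ⟨y, -, hy, g, hg, e⟩ := (Cfsg.Agent.S2174.result (F := F)).2.1 t ht
        (orderOf_eq_prime (by rw [pow_two, h2]) h1)
      simp only [List.mem_cons, List.not_mem_nil, or_false] at hy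
      rcases hy with hy | hy | hy | hy
      · refine ⟨[47], by simp, g, hg, ?_⟩
        rw [e, PX_cons, PX_nil, mul_one]
        exact Units.ext (by rw [hy, coe_xG])
      · refine ⟨[44], by simp, g, hg, ?_⟩
        rw [e, PX_cons, PX_nil, mul_one]
        exact Units.ext (by rw [hy, coe_xG])
      · refine ⟨[47, 44], by simp, g, hg, ?_⟩
        rw [e, PX_cons, PX_cons, PX_nil, mul_one]
        exact Units.ext (by rw [hy, Units.val_mul, coe_xG, coe_xG])
      · refine ⟨[39, 45], by simp, g, hg, ?_⟩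
        rw [e, PX_cons, PX_cons, PX_nil, mul_one]
        exact Units.ext (by rw [hy, Units.val_mul, coe_xG, coe_xG])
  rcases card_cases (F := F) with h | h | h | h | h
  · exact NC.of_card (by rw [hc, h]; decide +kernel)
  · exact NC.of_card (by rw [hc, h]; decide +kernel)
  · exact NC.of_card (by rw [hc, h]; decide +kernel)
  · exact NC.of_card (by rw [hc, h]; decide +kernel)
  · exact H h

theorem nc_g2 : NC ↥(chevG2.group F) := by
  have hc := (Cfsg.Agent.OrdDiv.table.{0}).g2 F
  have H : 32 ≤ Fintype.card F → NC ↥(chevG2.group F) := by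
    intro h32
    refine nc_group hpG.inList (reps := [[11], [9]]) (n := 4) ?_ ?_ (by decide +kernel)
    · exact le_trans (by norm_num) (Nat.pow_le_pow_left h32 4)
    · intro t ht h2 h1
      obtain ⟨y, -, hy, g, hg, e⟩ := (Cfsg.Agent.S2177.result (F := F) (by omega)).2.1 t ht
        (orderOf_eq_prime (by rw [pow_two, h2]) h1)
      simp only [List.mem_cons, List.not_mem_nil, or_false] at hy
      rcases hy with hy | hy
      · refine ⟨[11], by simp, g, hg, ?_⟩
        rw [e, PX_cons, PX_nil, mul_one]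
        exact Units.ext (by rw [hy, coe_xG])
      · refine ⟨[9], by simp, g, hg, ?_⟩
        rw [e, PX_cons, PX_nil, mul_one]
        exact Units.ext (by rw [hy, coe_xG])
  rcases card_cases (F := F) with h | h | h | h | h
  · exact NC.of_card (by rw [hc, h]; decide +kernel)
  · exact NC.of_card (by rw [hc, h]; decide +kernel)
  · exact NC.of_card (by rw [hc, h]; decide +kernel)
  · exact NC.of_card (by rw [hc, h]; decide +kernel)
  · exact H h

end Cfsg.Agent.R2.H3.Exc
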